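import Mathlib
import Cfsg.Agent.Lib.SL2.Basic
import Cfsg.Agent.Lib.SL2.Normalizer
import Cfsg.Agent.Lib.SL2.Dickson.Generation

/-!
Finite subgroups of `SL(2, F)` generated by two unipotent elements, `char F` odd
(`CfsgLib.ThompsonJ`).
-/

set_option autoImplicit false

open Matrix
open scoped MatrixGroups
open CfsgLib.SL2 (tr)
open CfsgLib.SL2.Dickson (lowS lowS_coe lowS_zero lowS_add)
open CfsgLib.ClassicalLinear (upS upS_coe upS_add)

namespace CfsgLib.ThompsonJ

variable {F : Type*} [Field F] {p : ℕ} [Fact p.Prime] [CharP F p]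

local notation "M₂" => Matrix (Fin 2) (Fin 2) F
local notation "SL₂F" => Matrix.SpecialLinearGroup (Fin 2) F

theorem two_ne_zero_of_ne_two (hp : p ≠ 2) : (2 : F) ≠ 0 := by
  intro h
  have h2 : ((2 : ℕ) : F) = 0 := by exact_mod_cast h
  have h3 := (CharP.cast_eq_zero_iff F p 2).1 h2
  exact hp ((Nat.prime_dvd_prime_iff_eq Fact.out Nat.prime_two).1 h3)

theorem sub_one_pow_prime_pow (A : M₂) (k : ℕ) : (A - 1) ^ p ^ k = A ^ p ^ k - 1 := by
  haveI : CharP M₂ p := inferInstance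
  rw [sub_pow_char_pow_of_commute (p := p) (n := k) (h := Commute.one_right A), one_pow]

theorem sl2_pow_eq_one_of_sq {a : SL₂F} (h : ((a : M₂) - 1) ^ 2 = 0) : a ^ p = 1 := by
  apply Subtype.ext
  rw [Matrix.SpecialLinearGroup.coe_pow, Matrix.SpecialLinearGroup.coe_one, ← sub_eq_zero]
  have h1 := sub_one_pow_prime_pow (p := p) (a : M₂) 1
  rw [pow_one] at h1
  rw [← h1]
  exact pow_eq_zero_of_le (Fact.out : p.Prime).two_le h

/-- Elements of `p`-power order of `SL(2, F)` are unipotent. -/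
theorem sl2_sq_eq_zero_of_pow {u : SL₂F} {k : ℕ} (h : u ^ p ^ k = 1) :
    ((u : M₂) - 1) ^ 2 = 0 := by
  set N := (u : M₂) - 1 with hN
  have hn : N ^ p ^ k = 0 := by
    rw [hN, sub_one_pow_prime_pow, ← Matrix.SpecialLinearGroup.coe_pow, h,
      Matrix.SpecialLinearGroup.coe_one, sub_self]
  have hdet : N.det = 0 := by
    have h2 := congrArg Matrix.det hn
    rw [Matrix.det_pow, Matrix.det_zero] at h2
    exact eq_zero_of_pow_eq_zero h2
  have hch : N * N = (N 0 0 + N 1 1) • N := by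
    rw [Matrix.det_fin_two] at hdet
    ext i j
    fin_cases i <;> fin_cases j <;> simp [Matrix.mul_apply] <;>
      first | ring1 | linear_combination hdet | linear_combination -hdet
  have hpow : ∀ j : ℕ, N ^ (j + 1) = (N 0 0 + N 1 1) ^ j • N := by
    intro j
    induction j with
    | zero => simp
    | succ j ih => rw [pow_succ N (j + 1), ih, Matrix.smul_mul, hch, smul_smul, ← pow_succ]
  have hpos : 0 < p ^ k := pow_pos (Fact.out : p.Prime).pos k
  have h3 := hpow (p ^ k - 1)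
  rw [Nat.sub_add_cancel hpos, hn] at h3
  rcases smul_eq_zero.1 h3.symm with h4 | h4
  · rw [sq, hch, eq_zero_of_pow_eq_zero h4, zero_smul]
  · rw [h4]; simp

theorem tr_eq_zero_of_pow_four (hp : p ≠ 2) {w : SL₂F} (h : w ^ 4 = 1) :
    tr w = 0 ∨ tr w = 2 ∨ tr w = -2 := by
  have h2 := two_ne_zero_of_ne_two (F := F) hp
  have hsq : (w ^ 2) ^ 2 = 1 := by rw [← pow_mul]; exact h
  by_cases h1 : w ^ 2 = 1
  · right
    by_cases hw : w = 1
    · left; subst hw; simp [tr]; norm_num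
    · right
      rw [SL2.eq_neg_one_of_sq_eq_one h2 h1 hw]
      simp [tr]; ring
  · left
    have h3 : w ^ 2 = -1 := SL2.eq_neg_one_of_sq_eq_one h2 hsq h1
    have h4 : (w : M₂) * (w : M₂) = -1 := by
      have := congrArg (fun g : SL₂F => (g : M₂)) h3
      simpa [sq] using this
    rw [SL2.mul_self_eq] at h4
    have h5 : tr w • (w : M₂) = 0 := by
      rw [sub_eq_iff_eq_add] at h4
      rw [h4]; simp
    rcases smul_eq_zero.1 h5 with h6 | h6
    · exact h6
    · have := w.det_coe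
      rw [h6] at this
      simp at this

/-- Conjugation by `GL₂` on `SL₂`. -/
def glConj (g : GL (Fin 2) F) : SL₂F →* SL₂F where
  toFun x := ⟨(g : M₂) * (x : M₂) * ((g⁻¹ : GL (Fin 2) F) : M₂), by
    rw [Matrix.det_mul, Matrix.det_mul, x.det_coe, mul_one, ← Matrix.det_mul, ← Units.val_mul,
      mul_inv_cancel, Units.val_one, Matrix.det_one]⟩
  map_one' := Subtype.ext (by simp)
  map_mul' x y := Subtype.ext (by
    have h : ((g⁻¹ : GL (Fin 2) F) : M₂) * (g : M₂) = 1 := by rw [← Units.val_mul]; simp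
    show (g : M₂) * ((x : M₂) * (y : M₂)) * ((g⁻¹ : GL (Fin 2) F) : M₂) =
      ((g : M₂) * (x : M₂) * ((g⁻¹ : GL (Fin 2) F) : M₂)) *
        ((g : M₂) * (y : M₂) * ((g⁻¹ : GL (Fin 2) F) : M₂))
    calc (g : M₂) * ((x : M₂) * (y : M₂)) * ((g⁻¹ : GL (Fin 2) F) : M₂)
        = (g : M₂) * ((x : M₂) * 1 * (y : M₂)) * ((g⁻¹ : GL (Fin 2) F) : M₂) := by simp
      _ = _ := by rw [← h]; simp only [Matrix.mul_assoc])

theorem glConj_coe (g : GL (Fin 2) F) (x : SL₂F) :
    (glConj g x : M₂) = (g : M₂) * (x : M₂) * ((g⁻¹ : GL (Fin 2) F) : M₂) := rfl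

theorem glConj_injective (g : GL (Fin 2) F) : Function.Injective (glConj g) := by
  intro x y h
  apply Subtype.ext
  have h1 := congrArg (fun z : SL₂F => (z : M₂)) h
  simp only [glConj_coe] at h1
  exact (g.isUnit.mul_right_inj).1 (((g⁻¹).isUnit.mul_left_inj).1 h1)

theorem glConj_eq_of_mul_eq {g : GL (Fin 2) F} {x a : SL₂F}
    (h : (g : M₂) * (x : M₂) = (a : M₂) * (g : M₂)) : glConj g x = a := by
  apply Subtype.ext
  rw [glConj_coe, h, Matrix.mul_assoc, ← Units.val_mul, mul_inv_cancel, Units.val_one, Matrix.mul_one]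

theorem pow_two_mul_of_tr (h2 : (2 : F) ≠ 0) {x : SL₂F} (ht : tr x ^ 2 = 4) :
    x ^ (2 * p) = 1 := by
  obtain ⟨l, hl2, htl⟩ : ∃ l : F, l ^ 2 = 1 ∧ tr x = 2 * l := by
    refine ⟨tr x / 2, ?_, by field_simp⟩
    field_simp
    linear_combination ht
  have hN : ((l • (x : M₂)) - 1) ^ 2 = 0 := by
    rw [sq]
    simp only [sub_mul, mul_sub, Matrix.smul_mul, Matrix.mul_smul, SL2.mul_self_eq, htl,
      smul_smul, one_mul, mul_one, smul_sub]
    match_scalars <;> grind
  have h5 := sub_one_pow_prime_pow (p := p) (l • (x : M₂)) 1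
  rw [pow_one, pow_eq_zero_of_le (Fact.out : p.Prime).two_le hN, smul_pow, eq_comm,
    sub_eq_zero] at h5
  apply Subtype.ext
  rw [Matrix.SpecialLinearGroup.coe_pow, Matrix.SpecialLinearGroup.coe_one, mul_comm, pow_mul]
  have h6 : (l ^ p • (x : M₂) ^ p) ^ 2 = 1 := by rw [h5, one_pow]
  rw [smul_pow, ← pow_mul, mul_comm, pow_mul, hl2, one_pow, one_smul] at h6
  exact h6

theorem tr_glConj (g : GL (Fin 2) F) (x : SL₂F) : tr (glConj g x) = tr x := by
  have h : ∀ y : SL₂F, tr y = (y : M₂).trace := fun y => (Matrix.trace_fin_two _).symm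
  rw [h, h, glConj_coe, Matrix.trace_mul_comm, ← Matrix.mul_assoc, ← Units.val_mul,
    inv_mul_cancel, Units.val_one, Matrix.one_mul]

theorem upS_nsmul {K : Type*} [Field K] (n : ℕ) (t : K) :
    (upS t : Matrix.SpecialLinearGroup (Fin 2) K) ^ n = upS (n * t) := by
  induction n with
  | zero =>
    apply Subtype.ext
    simp [upS_coe]
    ext i j; fin_cases i <;> fin_cases j <;> simp
  | succ n ih => rw [pow_succ, ih, ← upS_add]; congr 1; push_cast; ring

theorem upS_inv {K : Type*} [Field K] (t : K) :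
    (upS t : Matrix.SpecialLinearGroup (Fin 2) K)⁻¹ = upS (-t) := by
  refine inv_eq_of_mul_eq_one_right ?_
  rw [← upS_add, add_neg_cancel]
  apply Subtype.ext
  rw [upS_coe]
  ext i j; fin_cases i <;> fin_cases j <;> simp

/-- Two noncommuting unipotent elements are conjugate to `(1 0; 1 1)` and `(1 λ; 0 1)`. -/
theorem exists_normal_form {a b : SL₂F} (ha : ((a : M₂) - 1) ^ 2 = 0)
    (hb : ((b : M₂) - 1) ^ 2 = 0) (hne : a * b ≠ b * a) :
    ∃ (g : GL (Fin 2) F) (lam : F), lam ≠ 0 ∧ glConj g (lowS 1) = a ∧ glConj g (upS lam) = b := by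
  set N := (a : M₂) - 1 with hN
  set M := (b : M₂) - 1 with hM
  have hNM : N * M ≠ M * N := by
    intro h
    refine hne (Subtype.ext ?_)
    rw [Matrix.SpecialLinearGroup.coe_mul, Matrix.SpecialLinearGroup.coe_mul,
      show (a : M₂) = N + 1 by simp [hN], show (b : M₂) = M + 1 by simp [hM]]
    simp only [add_mul, mul_add, one_mul, mul_one, h]
    abel
  have hN0 : N ≠ 0 := by intro h; exact hNM (by rw [h]; simp)
  have hNsq := ha
  rw [sq] at hNsq
  have e00 := congrFun (congrFun hNsq 0) 0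
  have e01 := congrFun (congrFun hNsq 0) 1
  have e10 := congrFun (congrFun hNsq 1) 0
  have e11 := congrFun (congrFun hNsq 1) 1
  simp [Matrix.mul_apply] at e00 e01 e10 e11
  obtain ⟨g₁, hg₁⟩ : ∃ g₁ : GL (Fin 2) F, N * (g₁ : M₂) = (g₁ : M₂) * !![0, 0; 1, 0] := by
    by_cases h10 : N 1 0 = 0
    · have h00 : N 0 0 = 0 := by
        have : N 0 0 * N 0 0 = 0 := by linear_combination e00 - N 0 1 * h10
        exact mul_self_eq_zero.1 this
      have h11 : N 1 1 = 0 := by
        have : N 1 1 * N 1 1 = 0 := by linear_combination e11 - N 0 1 * h10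
        exact mul_self_eq_zero.1 this
      have h01 : N 0 1 ≠ 0 := by
        intro h; apply hN0; ext i j; fin_cases i <;> fin_cases j <;> simp [h00, h10, h11, h]
      refine ⟨GeneralLinearGroup.mkOfDetNeZero !![0, N 0 1; 1, 0] (by simp [det_fin_two_of, h01]), ?_⟩
      rw [GeneralLinearGroup.val_mkOfDetNeZero]
      ext i j; fin_cases i <;> fin_cases j <;> simp [Matrix.mul_apply, h00, h10, h11]
    · refine ⟨GeneralLinearGroup.mkOfDetNeZero !![1, N 0 0; 0, N 1 0] (by simp [det_fin_two_of, h10]), ?_⟩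
      rw [GeneralLinearGroup.val_mkOfDetNeZero]
      ext i j; fin_cases i <;> fin_cases j <;> simp [Matrix.mul_apply]
      · linear_combination e00
      · linear_combination e10
  set M' : M₂ := ((g₁⁻¹ : GL (Fin 2) F) : M₂) * M * (g₁ : M₂) with hM'
  have hgg : ((g₁⁻¹ : GL (Fin 2) F) : M₂) * (g₁ : M₂) = 1 := by rw [← Units.val_mul]; simp
  have hgg' : (g₁ : M₂) * ((g₁⁻¹ : GL (Fin 2) F) : M₂) = 1 := by rw [← Units.val_mul]; simp
  have hMg : M * (g₁ : M₂) = (g₁ : M₂) * M' := by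
    rw [hM', ← Matrix.mul_assoc, ← Matrix.mul_assoc, hgg', Matrix.one_mul]
  have hM'sq : M' * M' = 0 := by
    calc M' * M' = ((g₁⁻¹ : GL (Fin 2) F) : M₂) * (M * ((g₁ : M₂) * ((g₁⁻¹ : GL (Fin 2) F) : M₂)) * M) *
          (g₁ : M₂) := by simp only [hM', Matrix.mul_assoc]
      _ = 0 := by rw [hgg', Matrix.mul_one, ← sq, hb]; simp
  have f00 := congrFun (congrFun hM'sq 0) 0
  have f01 := congrFun (congrFun hM'sq 0) 1
  simp [Matrix.mul_apply] at f00 f01
  have hz : M' 0 1 ≠ 0 := by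
    intro h0
    have h00 : M' 0 0 = 0 := by
      have : M' 0 0 * M' 0 0 = 0 := by linear_combination f00 - M' 1 0 * h0
      exact mul_self_eq_zero.1 this
    have h11 : M' 1 1 = 0 := by
      have f11 := congrFun (congrFun hM'sq 1) 1
      simp [Matrix.mul_apply] at f11
      have : M' 1 1 * M' 1 1 = 0 := by linear_combination f11 - M' 1 0 * h0
      exact mul_self_eq_zero.1 this
    have hc : (!![0, 0; 1, 0] : M₂) * M' = M' * !![0, 0; 1, 0] := by
      ext i j; fin_cases i <;> fin_cases j <;> simp [Matrix.mul_apply, h0, h00, h11]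
    refine hNM ?_
    calc N * M = N * (g₁ : M₂) * (((g₁⁻¹ : GL (Fin 2) F) : M₂) * M * (g₁ : M₂)) *
          ((g₁⁻¹ : GL (Fin 2) F) : M₂) := by
          simp only [Matrix.mul_assoc, hgg', Matrix.mul_one]
          rw [← Matrix.mul_assoc (g₁ : M₂), hgg', Matrix.one_mul]
      _ = (g₁ : M₂) * (!![0, 0; 1, 0] * M') * ((g₁⁻¹ : GL (Fin 2) F) : M₂) := by
          rw [hg₁, ← hM']; simp only [Matrix.mul_assoc]
      _ = (g₁ : M₂) * M' * (!![0, 0; 1, 0] * ((g₁⁻¹ : GL (Fin 2) F) : M₂)) := by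
          rw [hc]; simp only [Matrix.mul_assoc]
      _ = M * (g₁ : M₂) * (!![0, 0; 1, 0] * ((g₁⁻¹ : GL (Fin 2) F) : M₂)) := by rw [hMg]
      _ = M * (N * (g₁ : M₂) * ((g₁⁻¹ : GL (Fin 2) F) : M₂)) := by
          rw [hg₁]; simp only [Matrix.mul_assoc]
      _ = M * N := by rw [Matrix.mul_assoc, hgg', Matrix.mul_one]
  set z := M' 0 1 with hzdef
  set s := -(M' 0 0) / z with hs
  let h : GL (Fin 2) F :=
    GeneralLinearGroup.mkOfDetNeZero !![1, 0; s, 1] (by simp [det_fin_two_of])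
  have hh : (h : M₂) = !![1, 0; s, 1] := GeneralLinearGroup.val_mkOfDetNeZero _ _
  have hsz : s * z = -(M' 0 0) := by rw [hs]; field_simp
  have hMh : M' * (h : M₂) = (h : M₂) * !![0, z; 0, 0] := by
    rw [hh]
    ext i j; fin_cases i <;> fin_cases j <;> simp [Matrix.mul_apply]
    · linear_combination hsz
    all_goals apply mul_left_cancel₀ hz
    all_goals grind
  have hNh : (!![0, 0; 1, 0] : M₂) * (h : M₂) = (h : M₂) * !![0, 0; 1, 0] := by
    rw [hh]
    ext i j; fin_cases i <;> fin_cases j <;> simp [Matrix.mul_apply]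
  refine ⟨g₁ * h, z, hz, ?_, ?_⟩ <;> refine glConj_eq_of_mul_eq ?_
  · have hl : (lowS (1 : F) : M₂) = 1 + !![0, 0; 1, 0] := by
      rw [lowS_coe]; ext i j; fin_cases i <;> fin_cases j <;> simp
    rw [Units.val_mul, hl, show (a : M₂) = 1 + N by simp [hN]]
    calc (g₁ : M₂) * (h : M₂) * (1 + !![0, 0; 1, 0])
        = (g₁ : M₂) * (h : M₂) + (g₁ : M₂) * ((h : M₂) * !![0, 0; 1, 0]) := by
          simp [Matrix.mul_add, Matrix.mul_assoc]
      _ = (1 + N) * ((g₁ : M₂) * (h : M₂)) := by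
          rw [← hNh, ← Matrix.mul_assoc (g₁ : M₂), ← hg₁]; simp [Matrix.add_mul, Matrix.mul_assoc]
  · have hl : (upS z : M₂) = 1 + !![0, z; 0, 0] := by
      rw [upS_coe]; ext i j; fin_cases i <;> fin_cases j <;> simp
    rw [Units.val_mul, hl, show (b : M₂) = 1 + M by simp [hM]]
    calc (g₁ : M₂) * (h : M₂) * (1 + !![0, z; 0, 0])
        = (g₁ : M₂) * (h : M₂) + (g₁ : M₂) * ((h : M₂) * !![0, z; 0, 0]) := by
          simp [Matrix.mul_add, Matrix.mul_assoc]
      _ = (1 + M) * ((g₁ : M₂) * (h : M₂)) := by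
          rw [← hMh, ← Matrix.mul_assoc (g₁ : M₂), ← hMg]; simp [Matrix.add_mul, Matrix.mul_assoc]

theorem neg_one_ne_one (hp : p ≠ 2) : (-1 : SL₂F) ≠ 1 := by
  intro h
  have h1 := congrArg (fun g : SL₂F => (g : M₂) 0 0) h
  simp at h1
  exact two_ne_zero_of_ne_two (F := F) hp (by linear_combination (-1 : F) * h1)

theorem orderOf_neg_one (hp : p ≠ 2) : orderOf (-1 : SL₂F) = 2 :=
  orderOf_eq_prime (by simp) (neg_one_ne_one hp)

end CfsgLib.ThompsonJ
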