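import Mathlib
import Cfsg.Agent.Lib.ThompsonJ.SL2Unipotent
import Cfsg.Agent.Lib.SL2.Basic
import Cfsg.Agent.Lib.SL2.Normalizer
import Cfsg.Agent.Lib.SL2.Dickson.Generation
import Cfsg.Agent.Lib.CoprimeAction.Abelian

/-!
Finite subgroups of `SL(2, F)` generated by two unipotent elements, `char F` odd
(`CfsgLib.ThompsonJ`).
-/

set_option autoImplicit false

open Matrix
open scoped MatrixGroups
open CfsgLib.SL2 (tr)
open CfsgLib.SL2.Dickson (lowS lowS_coe lowS_zero lowS_add)
open CfsgLib.ClassicalLinear (upS upS_coe upS_add)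

namespace CfsgLib.ThompsonJ

variable {F : Type*} [Field F] {p : ℕ} [Fact p.Prime] [CharP F p]

local notation "M₂" => Matrix (Fin 2) (Fin 2) F
local notation "SL₂F" => Matrix.SpecialLinearGroup (Fin 2) F

/-- Over an algebraic extension of the prime field, two noncommuting unipotent elements do not
generate a group of odd order. -/
theorem not_odd_card_closure [Algebra (ZMod p) F] [Algebra.IsAlgebraic (ZMod p) F] (hp : p ≠ 2)
    {a b : SL₂F} (ha : ((a : M₂) - 1) ^ 2 = 0) (hb : ((b : M₂) - 1) ^ 2 = 0)
    (hne : a * b ≠ b * a) {X : Subgroup SL₂F} (haX : a ∈ X) (hbX : b ∈ X) [Finite X] :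
    ¬ Odd (Nat.card X) := by
  intro hodd
  obtain ⟨g, lam, hlam, hga, hgb⟩ := exists_normal_form ha hb hne
  set F₀ : Subfield F := Subfield.closure {lam} with hF₀
  have hfin : Finite F₀ := by
    haveI : FiniteDimensional (ZMod p) (IntermediateField.adjoin (ZMod p) ({lam} : Set F)) :=
      IntermediateField.adjoin.finiteDimensional (Algebra.IsIntegral.isIntegral lam)
    haveI : Finite (IntermediateField.adjoin (ZMod p) ({lam} : Set F)) :=
      Module.finite_of_finite (ZMod p)
    have hle : F₀ ≤ (IntermediateField.adjoin (ZMod p) ({lam} : Set F)).toSubfield :=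
      Subfield.closure_le.2 (IntermediateField.subset_adjoin _ _)
    exact Finite.of_injective (Subfield.inclusion hle) (Subfield.inclusion hle).injective
  set l : F₀ := ⟨lam, Subfield.subset_closure rfl⟩ with hl
  have hgen : Subfield.closure ({l} : Set F₀) = ⊤ := by
    refine eq_top_iff.2 fun x _ => ?_
    have hx : (x : F) ∈ (Subfield.closure ({l} : Set F₀)).map F₀.subtype := by
      rw [RingHom.map_field_closure, Set.image_singleton]
      exact x.2
    obtain ⟨y, hy, hyx⟩ := hx
    rwa [← Subtype.ext (show (y : F) = (x : F) from hyx)]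
  let ψ : Matrix.SpecialLinearGroup (Fin 2) F₀ →* SL₂F :=
    (glConj g).comp (Matrix.SpecialLinearGroup.map F₀.subtype)
  have hψ : Function.Injective ψ := by
    refine (glConj_injective g).comp fun x y h => Subtype.ext ?_
    ext i j
    have := congrArg (fun z : SL₂F => (z : M₂) i j) h
    simpa using this
  have h1 : ψ (lowS 1) = a := by
    rw [← hga]
    refine congrArg (glConj g) (Subtype.ext ?_)
    ext i j; fin_cases i <;> fin_cases j <;> simp [lowS_coe]
  have h2 : ψ (upS l) = b := by
    rw [← hgb]
    refine congrArg (glConj g) (Subtype.ext ?_)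
    ext i j; fin_cases i <;> fin_cases j <;> simp [upS_coe, hl]
  haveI : CharP F₀ p := charP_of_injective_ringHom F₀.subtype.injective p |> fun _ =>
    ⟨fun n => by rw [← CharP.cast_eq_zero_iff F p n, ← map_natCast F₀.subtype,
      map_eq_zero_iff _ F₀.subtype.injective]⟩
  haveI := hfin
  have hG := SL2.Dickson.generation (G := X.comap ψ) (two_ne_zero_of_ne_two (F := F₀) hp)
    (fun h => hlam (congrArg Subtype.val h)) hgen (show ψ (lowS 1) ∈ X by rw [h1]; exact haX)
    (show ψ (upS l) ∈ X by rw [h2]; exact hbX)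
  have hdvd : Nat.card (X.comap ψ) ∣ Nat.card X := by
    rw [← Subgroup.card_map_of_injective hψ]
    exact Subgroup.card_dvd_of_le (Subgroup.map_comap_le ψ X)
  have heven : 2 ∣ Nat.card (X.comap ψ) := by
    rcases hG with hG | ⟨-, -, hG⟩
    · have hm : (-1 : Matrix.SpecialLinearGroup (Fin 2) F₀) ∈ X.comap ψ := by
        rw [hG]; exact Subgroup.mem_top _
      have := (X.comap ψ).orderOf_dvd_natCard hm
      rwa [orderOf_neg_one (F := F₀) hp] at this
    · rw [hG]; norm_num
  exact (Nat.not_even_iff_odd.2 hodd) (even_iff_two_dvd.2 (heven.trans hdvd))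

/-- A noncommuting pair of unipotent elements generates a group with nonabelian Sylow
`2`-subgroups. -/
theorem not_forall_isMulCommutative [Algebra (ZMod p) F] [Algebra.IsAlgebraic (ZMod p) F]
    (hp : p ≠ 2) {X : Subgroup SL₂F} [Finite X] {a b : X}
    (ha : (((a : SL₂F) : M₂) - 1) ^ 2 = 0) (hb : (((b : SL₂F) : M₂) - 1) ^ 2 = 0)
    (hgen : Subgroup.closure {a, b} = ⊤) (hne : a * b ≠ b * a) (T : Sylow 2 X)
    (hT : IsMulCommutative (T : Subgroup X)) : False := by
  have hne' : (a : SL₂F) * b ≠ b * a := fun h => hne (Subtype.ext h)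
  have hnodd := not_odd_card_closure hp ha hb hne' a.2 b.2
  have hcyc : IsCyclic (T : Subgroup X) := by
    letI : CommGroup (T : Subgroup X) := { (inferInstance : Group (T : Subgroup X)) with
      mul_comm := fun x y => hT.is_comm.comm x y }
    refine CoprimeAction.isCyclic_of_prime_roots fun q hq => ?_
    by_cases hq2 : q = 2
    · subst hq2
      classical
      have hsq : ∀ x : (powMonoidHom 2 : (T : Subgroup X) →* (T : Subgroup X)).ker,
          ((((x : (T : Subgroup X)) : X) : SL₂F)) ^ 2 = 1 := by
        intro x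
        have := x.2
        rw [MonoidHom.mem_ker, powMonoidHom_apply] at this
        exact congrArg (fun z : (T : Subgroup X) => ((z : X) : SL₂F)) this
      have hinj : Function.Injective
          (fun x : (powMonoidHom 2 : (T : Subgroup X) →* (T : Subgroup X)).ker =>
            decide ((((x : (T : Subgroup X)) : X) : SL₂F) = 1)) := by
        intro x y hxy
        refine Subtype.ext (Subtype.ext (Subtype.ext ?_))
        simp only [decide_eq_decide] at hxy
        by_cases h1 : ((((x : (T : Subgroup X)) : X) : SL₂F)) = 1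
        · rw [h1, hxy.1 h1]
        · rw [SL2.eq_neg_one_of_sq_eq_one (two_ne_zero_of_ne_two hp) (hsq x) h1,
            SL2.eq_neg_one_of_sq_eq_one (two_ne_zero_of_ne_two hp) (hsq y) (fun h => h1 (hxy.2 h))]
      have := Nat.card_le_card_of_injective _ hinj
      simpa [Nat.card_eq_fintype_card (α := Bool)] using this
    · have hbot : (powMonoidHom q : (T : Subgroup X) →* (T : Subgroup X)).ker = ⊥ := by
        rw [eq_bot_iff]
        intro x hx
        rw [MonoidHom.mem_ker, powMonoidHom_apply] at hx
        obtain ⟨k, hk⟩ := T.isPGroup' x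
        rw [Subgroup.mem_bot, ← orderOf_eq_one_iff]
        exact Nat.eq_one_of_dvd_coprimes (((Nat.coprime_primes hq Nat.prime_two).2 hq2).pow_right k)
          (orderOf_dvd_of_pow_eq_one hx) (orderOf_dvd_of_pow_eq_one hk)
      rw [hbot, Subgroup.card_bot]
      exact hq.one_le
  have hmin : (Nat.card X).minFac = 2 := Nat.minFac_eq_two_iff _ |>.2
    (even_iff_two_dvd.1 (Nat.not_odd_iff_even.1 hnodd))
  have hc := hcyc.isComplement' hmin
  set K := (MonoidHom.transferSylow T (hcyc.normalizer_le_centralizer hmin)).ker with hK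
  have hmem : ∀ x : X, (((x : SL₂F) : M₂) - 1) ^ 2 = 0 → x ∈ K := by
    intro x hx
    have hxp : x ^ p = 1 := Subtype.ext (by rw [SubgroupClass.coe_pow]; exact sl2_pow_eq_one_of_sq hx)
    rw [← QuotientGroup.eq_one_iff, ← orderOf_eq_one_iff]
    obtain ⟨k, hk⟩ := IsPGroup.iff_card.1 T.isPGroup'
    have hidx : Nat.card (X ⧸ K) = 2 ^ k := by
      rw [← hk]; exact hc.symm.index_eq_card
    refine Nat.eq_one_of_dvd_coprimes ?_ ((orderOf_map_dvd (QuotientGroup.mk' K) x).trans
      (orderOf_dvd_of_pow_eq_one hxp)) (hidx ▸ orderOf_dvd_natCard _)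
    exact ((Nat.coprime_primes Fact.out Nat.prime_two).2 hp).pow_right k
  have hKtop : K = ⊤ := by
    rw [eq_top_iff, ← hgen, Subgroup.closure_le]
    rintro x (rfl | rfl)
    · exact hmem _ ha
    · exact hmem _ hb
  have hT1 : (T : Subgroup X) = ⊥ := by
    have := hc.disjoint
    rw [hKtop, top_disjoint] at this
    exact this
  have h2 := T.dvd_card_of_dvd_card (even_iff_two_dvd.1 (Nat.not_odd_iff_even.1 hnodd))
  rw [hT1, Subgroup.card_bot] at h2
  omega

end CfsgLib.ThompsonJ
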