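import Cfsg.Agent.Lib.ThompsonJ.StableClosure
import Cfsg.Agent.Lib.ThompsonJ.Replacement
import Cfsg.Agent.Lib.CoprimeAction.Basic

/-!
In an action-`p`-stable group with `C(O_p(G)) ≤ O_p(G)`, the stable normal closure `W(S)` is
normal (`CfsgLib.ThompsonJ`).
-/

set_option autoImplicit false

open scoped commutatorElement

namespace CfsgLib.ThompsonJ

open Cfsg

variable {G : Type*} [Group G] [Finite G] {p : ℕ} [hp : Fact p.Prime]

omit [Finite G] hp in
theorem commutator_mul_left_of_centralizer {U : Subgroup G} [U.Normal] {u c d : G} (hu : u ∈ U)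
    (hc : c ∈ Subgroup.centralizer (U : Set G)) : ⁅u, c * d⁆ = ⁅u, d⁆ := by
  have hw : d * u⁻¹ * d⁻¹ ∈ U := Subgroup.Normal.conj_mem inferInstance _ (inv_mem hu) d
  have hcc : c * (d * u⁻¹ * d⁻¹) * c⁻¹ = d * u⁻¹ * d⁻¹ := by
    rw [← hc _ hw, mul_inv_cancel_right]
  calc ⁅u, c * d⁆ = u * (c * (d * u⁻¹ * d⁻¹) * c⁻¹) := by rw [commutatorElement_def]; group
    _ = ⁅u, d⁆ := by rw [hcc, commutatorElement_def]; group

/-- The elements centralizing `O_p(G)/Φ(O_p(G))` form a `p`-group if `C(O_p(G)) ≤ O_p(G)`. -/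
theorem isPGroup_sectionKernel_frattini [((frattini ↥(pCore p G)).map (pCore p G).subtype).Normal]
    (hc : Subgroup.centralizer (pCore p G : Set G) ≤ pCore p G) :
    IsPGroup p ↥(sectionKernel (pCore p G) ((frattini ↥(pCore p G)).map (pCore p G).subtype)) := by
  set Q := pCore p G with hQ
  set N := (frattini ↥Q).map Q.subtype with hN
  rintro ⟨x, hx⟩
  obtain ⟨j, m, hpm, hxo⟩ := Nat.exists_eq_pow_mul_and_not_dvd (orderOf_pos x).ne' p hp.out.ne_one
  refine ⟨j, Subtype.ext ?_⟩
  rw [SubgroupClass.coe_pow, OneMemClass.coe_one]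
  set y := x ^ p ^ j with hy
  have hyo : orderOf y = m := by
    rw [hy, orderOf_pow, hxo, Nat.gcd_eq_right (dvd_mul_right _ _),
      Nat.mul_div_cancel_left _ (pow_pos hp.out.pos j)]
  have hyK : y ∈ sectionKernel Q N := pow_mem hx _
  haveI hQn : Q.Normal := inferInstance
  have hQp : IsPGroup p Q := Cores.isPGroup_pCore p G
  have hcop : (Nat.card (Subgroup.zpowers y)).Coprime (Nat.card (frattini ↥Q)) := by
    obtain ⟨k, hk⟩ := IsPGroup.iff_card.1 (hQp.to_subgroup (frattini ↥Q))
    rw [Nat.card_zpowers, hyo, hk]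
    exact Nat.Coprime.pow_right k ((hp.out.coprime_iff_not_dvd.2 hpm).symm)
  have hcent : Subgroup.zpowers y ≤ Subgroup.centralizer (Q : Set G) := by
    refine CoprimeAction.le_centralizer_of_frattini (fun a _ => ?_) hcop fun a ha k hk => ?_
    · rw [Subgroup.normalizer_eq_top]
      exact Subgroup.mem_top a
    · have haK : a ∈ sectionKernel Q N := (Subgroup.zpowers_le.2 hyK) ha
      have h2 : (QuotientGroup.mk' N k) * (QuotientGroup.mk' N a) =
          (QuotientGroup.mk' N a) * (QuotientGroup.mk' N k) :=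
        haK _ (Subgroup.mem_map_of_mem _ hk)
      change k⁻¹ * (a * k * a⁻¹) ∈ N
      rw [← QuotientGroup.eq_one_iff, ← QuotientGroup.mk'_apply]
      simp only [map_mul, map_inv]
      rw [← h2]
      group
  have hyQ : y ∈ Q := hc (hcent (Subgroup.mem_zpowers y))
  obtain ⟨k, hk⟩ := hQp ⟨y, hyQ⟩
  have h1 : orderOf y ∣ p ^ k := orderOf_dvd_of_pow_eq_one (by
    have := congrArg Subtype.val hk
    simpa using this)
  rw [hyo] at h1
  have h2 : m = 1 := Nat.eq_one_of_dvd_coprimes
    (Nat.Coprime.pow_right k ((hp.out.coprime_iff_not_dvd.2 hpm).symm)) dvd_rfl h1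
  exact orderOf_eq_one_iff.1 (hyo.trans h2)

section

variable (S : Sylow p G)

/-- An element of `S` acting quadratically on `W(S)` centralizes it (inside `G`). -/
theorem mem_centralizer_of_quadratic {a : G} (ha : a ∈ (S : Subgroup G))
    (hq : ∀ w ∈ (stableNormalClosure p ↥(S : Subgroup G)).map (S : Subgroup G).subtype,
      ⁅⁅w, a⁆, a⁆ = 1) :
    a ∈ Subgroup.centralizer
      ((stableNormalClosure p ↥(S : Subgroup G)).map (S : Subgroup G).subtype : Set G) := by
  have h := le_centralizer_of_quadratic_stableNormalClosure (p := p) (⟨a, ha⟩ : (S : Subgroup G))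
    (quadratic_zpowers_iff.2 fun w hw => Subtype.ext <| by
      have := hq _ (Subgroup.mem_map_of_mem _ hw)
      exact this)
  rintro _ ⟨w, hw, rfl⟩
  exact congrArg Subtype.val (h hw ⟨a, ha⟩ (Subgroup.mem_zpowers _)).symm

theorem sylow_le_normalizer_stableNormalClosure :
    (S : Subgroup G) ≤ Subgroup.normalizer
      ((stableNormalClosure p ↥(S : Subgroup G)).map (S : Subgroup G).subtype : Set G) :=
  haveI := stableNormalClosure_characteristic p ↥(S : Subgroup G)
  le_trans Subgroup.le_normalizer
    (Cores.normalizer_le_normalizer_map_subtype _ (stableNormalClosure p ↥(S : Subgroup G)))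

theorem isElementaryAbelian_map_stableNormalClosure :
    IsElementaryAbelian p ((stableNormalClosure p ↥(S : Subgroup G)).map (S : Subgroup G).subtype) :=
  isElementaryAbelian_map isElementaryAbelian_stableNormalClosure _

theorem stableNormalClosure_le_pCore (hst : IsActionPStable p G)
    (hc : Subgroup.centralizer (pCore p G : Set G) ≤ pCore p G) :
    (stableNormalClosure p ↥(S : Subgroup G)).map (S : Subgroup G).subtype ≤ pCore p G := by
  set W := (stableNormalClosure p ↥(S : Subgroup G)).map (S : Subgroup G).subtype with hW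
  have hQW : pCore p G ≤ Subgroup.normalizer (W : Set G) :=
    (Cores.pCore_le_sylow S).trans (sylow_le_normalizer_stableNormalClosure S)
  have hWe := isElementaryAbelian_map_stableNormalClosure (p := p) S
  haveI : ((frattini ↥(pCore p G)).map (pCore p G).subtype).Normal :=
    Cores.normal_map_subtype _ _
  intro w hw
  obtain ⟨D, hDn, hKD, ⟨k, hk⟩, hwD⟩ := hst.2.1 w (by
    refine le_trans ?_ bot_le
    rw [le_bot_iff, Subgroup.commutator_eq_bot_iff_le_centralizer, Subgroup.commutator_le]
    intro q hq z hz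
    have h1 : ⁅q, z⁆ ∈ W := (Subgroup.le_normalizer_iff_commutator_le_right.1 hQW)
      (Subgroup.commutator_mem_commutator hq ((Subgroup.zpowers_le.2 hw) hz))
    intro v hv
    exact (isElementaryAbelian_comm hWe h1 ((Subgroup.zpowers_le.2 hw) hv)).symm)
  have hDp : IsPGroup p D := by
    obtain ⟨i, hi⟩ := IsPGroup.iff_card.1 (isPGroup_sectionKernel_frattini hc)
    refine IsPGroup.iff_card.2 ⟨i + k, ?_⟩
    rw [pow_add, ← hi, ← hk, ← Subgroup.relIndex_bot_left, ← Subgroup.relIndex_bot_left,
      Subgroup.relIndex_mul_relIndex _ _ _ bot_le hKD]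
  exact Cores.le_pCore hDp hwD

/-- The `W(S)` analogue of the `ZJ`-theorem. -/
theorem stableNormalClosure_normal (hst : IsActionPStable p G)
    (hc : Subgroup.centralizer (pCore p G : Set G) ≤ pCore p G) :
    ((stableNormalClosure p ↥(S : Subgroup G)).map (S : Subgroup G).subtype).Normal := by
  set W := (stableNormalClosure p ↥(S : Subgroup G)).map (S : Subgroup G).subtype with hW
  set Q := pCore p G with hQdef
  have hWQ : W ≤ Q := stableNormalClosure_le_pCore S hst hc
  have hQS : Q ≤ (S : Subgroup G) := Cores.pCore_le_sylow S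
  have hQW : Q ≤ Subgroup.normalizer (W : Set G) :=
    hQS.trans (sylow_le_normalizer_stableNormalClosure S)
  have hWe := isElementaryAbelian_map_stableNormalClosure (p := p) S
  -- the normal closure of `W`
  set U := Subgroup.normalClosure (W : Set G) with hU
  have hconjle : ∀ g : G, W.map (MulAut.conj g).toMonoidHom ≤ Q := by
    rintro g _ ⟨w, hw, rfl⟩
    exact Subgroup.Normal.conj_mem inferInstance _ (hWQ hw) g
  have hWW : ∀ g : G, W.map (MulAut.conj g).toMonoidHom ≤ Subgroup.centralizer (W : Set G) := by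
    intro g x hx
    refine mem_centralizer_of_quadratic S (hQS (hconjle g hx)) fun w hw => ?_
    refine commutatorElement_eq_one_iff_mul_comm.2 ?_
    have hxn : x ∈ Q := hconjle g hx
    have h1 : ⁅w, x⁆ ∈ W.map (MulAut.conj g).toMonoidHom := by
      obtain ⟨z, hz, rfl⟩ := hx
      have hgw : g⁻¹ * w * g ∈ Q := by
        have := Subgroup.Normal.conj_mem (inferInstance : Q.Normal) _ (hWQ hw) g⁻¹
        simpa using this
      refine ⟨⁅g⁻¹ * w * g, z⁆, ?_, ?_⟩
      · exact (Subgroup.le_normalizer_iff_commutator_le_right.1 hQW)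
          (Subgroup.commutator_mem_commutator hgw hz)
      · simp [commutatorElement_def, MulAut.conj_apply, mul_assoc]
    exact isElementaryAbelian_comm (isElementaryAbelian_map hWe _) h1 hx
  have hUsup : U = ⨆ g : G, W.map (MulAut.conj g).toMonoidHom := by
    refine le_antisymm ?_ (iSup_le fun g => ?_)
    · refine (Subgroup.closure_le _).2 fun x hx => ?_
      obtain ⟨w, hw, hwx⟩ := Group.mem_conjugatesOfSet_iff.1 hx
      obtain ⟨g, rfl⟩ := isConj_iff.1 hwx
      exact le_iSup (fun g : G => W.map (MulAut.conj g).toMonoidHom) g ⟨w, hw, rfl⟩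
    · rintro _ ⟨w, hw, rfl⟩
      exact Subgroup.normalClosure_normal.conj_mem _ (Subgroup.subset_normalClosure hw) g
  have hUe : IsElementaryAbelian p U := by
    rw [hUsup]
    refine isElementaryAbelian_iSup (fun g => isElementaryAbelian_map hWe _) fun g h => ?_
    rintro _ ⟨z, hz, rfl⟩ _ ⟨w, hw, rfl⟩
    have h1 := hWW (h⁻¹ * g) ⟨z, hz, rfl⟩ w hw
    have h2 := congrArg (MulAut.conj h) h1
    simpa [MulAut.conj_apply, mul_assoc] using h2
  have hWU : W ≤ U := Subgroup.subset_normalClosure
  have hUS : U ≤ (S : Subgroup G) := le_trans (Subgroup.normalClosure_le_normal hWQ) hQS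
  set C := Subgroup.centralizer (U : Set G) with hC
  -- elements of `S` acting quadratically on `U` centralize it
  have hquad : ∀ a ∈ (S : Subgroup G), (∀ u ∈ U, ⁅⁅u, a⁆, a⁆ = 1) → a ∈ C := by
    intro a _ hq
    have haD : a ∈ (pCore p (G ⧸ C)).comap (QuotientGroup.mk' C) :=
      hst.1 U hUe a (quadratic_zpowers_iff.2 hq)
    rw [hC, hUsup]
    refine Subgroup.le_centralizer_iff.2 (iSup_le fun g => ?_) (Subgroup.mem_zpowers a)
    have hgD : g⁻¹ * a * g ∈ (pCore p (G ⧸ C)).comap (QuotientGroup.mk' C) := by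
      have := Subgroup.Normal.conj_mem inferInstance _ haD g⁻¹
      simpa using this
    rw [comap_pCore_eq_sup S C, Subgroup.mem_sup_of_normal_left] at hgD
    obtain ⟨c, hc', d, hd, hcd⟩ := hgD
    have hdq : ∀ u ∈ U, ⁅⁅u, d⁆, d⁆ = 1 := by
      intro u hu
      have hgu : g * u * g⁻¹ ∈ U := Subgroup.normalClosure_normal.conj_mem _ hu g
      have h1 := congrArg (MulAut.conj g⁻¹) (hq _ hgu)
      simp only [map_commutatorElement, map_one, MulAut.conj_apply, inv_inv] at h1
      rw [show g⁻¹ * (g * u * g⁻¹) * g = u by group, ← hcd] at h1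
      rwa [commutator_mul_left_of_centralizer hu hc', commutator_mul_left_of_centralizer
        (commutator_mem_of_mem_normalizer (by rw [Subgroup.normalizer_eq_top]; exact Subgroup.mem_top d) hu)
        hc'] at h1
    have hdW : d ∈ Subgroup.centralizer (W : Set G) :=
      mem_centralizer_of_quadratic S hd.1 fun w hw => hdq w (hWU hw)
    have hcW : c ∈ Subgroup.centralizer (W : Set G) := Subgroup.centralizer_le hWU hc'
    have hgaW : g⁻¹ * a * g ∈ Subgroup.centralizer (W : Set G) := hcd ▸ mul_mem hcW hdW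
    rintro _ ⟨w, hw, rfl⟩ _ ⟨n, rfl⟩
    have h2 : Commute (g * w * g⁻¹) a := by
      have h3 := congrArg (MulAut.conj g) (hgaW w hw)
      simpa [MulAut.conj_apply, mul_assoc, Commute, SemiconjBy] using h3
    exact ((h2.symm.zpow_left n)).eq
  -- hence `J(S)` centralizes `U`
  have hJ : thompsonSubgroupOf p (S : Subgroup G) ≤ C := by
    refine thompsonSubgroupOf_le_iff.2 fun A hA => ?_
    obtain ⟨hA0, hq0, hne⟩ := thompson_replacement hUe hUS
      (by rw [Subgroup.normalizer_eq_top]; exact le_top) hA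
    have hz : ⁅U, A⁆ = ⊥ := by
      by_contra h
      refine hne h (Subgroup.commutator_eq_bot_iff_le_centralizer.2 (Subgroup.le_centralizer_iff.1 ?_))
      intro a ha
      refine hquad a (hA0.le ha) fun u hu => ?_
      rw [← Subgroup.mem_bot, ← hq0]
      exact Subgroup.commutator_mem_commutator (Subgroup.commutator_mem_commutator hu ha) ha
    exact Subgroup.le_centralizer_iff.1 (Subgroup.commutator_eq_bot_iff_le_centralizer.1 hz)
  -- `N(J(S))` normalizes `W`
  set J := thompsonSubgroupOf p (S : Subgroup G) with hJdef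
  set N := Subgroup.normalizer (J : Set G) with hN
  have hSN : (S : Subgroup G) ≤ N :=
    le_trans Subgroup.le_normalizer (normalizer_le_normalizer_thompsonSubgroupOf p _)
  have hτ : IsStableEmbedding p (Subgroup.inclusion hSN) := by
    refine ⟨Subgroup.inclusion_injective hSN, inferInstance, ⟨S.subtype hSN, ?_⟩, ?_, ?_, ?_⟩
    · rw [Sylow.coe_subtype, Subgroup.inclusion_range]
    · have hQN : Q ≤ N := hQS.trans hSN
      have h1 : Q.subgroupOf N ≤ pCore p N :=
        Cores.le_pCore ((Cores.isPGroup_pCore p G).comap_of_injective N.subtype N.subtype_injective)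
      refine le_trans (Subgroup.centralizer_le h1) ?_
      intro x hx
      refine h1 ?_
      refine hc fun q hq => ?_
      have := hx ⟨q, hQN hq⟩ hq
      exact congrArg Subtype.val this
    · have : (thompsonSubgroup p ↥(S : Subgroup G)).map (Subgroup.inclusion hSN) =
          J.subgroupOf N := by
        refine Subgroup.map_injective N.subtype_injective ?_
        rw [Subgroup.map_map, Subgroup.subgroupOf_map_subtype,
          inf_eq_left.2 ((thompsonSubgroupOf_le p _).trans hSN), Subgroup.subtype_comp_inclusion]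
        rfl
      rw [this]
      exact Subgroup.normal_in_normalizer
    · intro V hVn hV
      refine hst.2.2 S V ?_
      refine le_trans (Subgroup.map_mono hV) ?_
      rw [Subgroup.map_map, Subgroup.subtype_comp_inclusion]
  have hWN : N ≤ Subgroup.normalizer (W : Set G) := by
    intro n hn
    have hnorm := stableNormalClosure_map_normal hτ
    refine CoprimeAction.mem_normalizer_of_conj_mem fun x hx => ?_
    obtain ⟨z, hz, rfl⟩ := hx
    obtain ⟨y, hy, hy'⟩ := hnorm.conj_mem _ (Subgroup.mem_map_of_mem _ hz) ⟨n, hn⟩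
    exact ⟨y, hy, congrArg Subtype.val hy'⟩
  -- Frattini
  have hCS : thompsonSubgroupOf p ((S : Subgroup G) ⊓ C) = J :=
    thompsonSubgroupOf_eq_of_le inf_le_left (le_inf (thompsonSubgroupOf_le p _) hJ)
  rw [← Subgroup.normalizer_eq_top_iff, eq_top_iff]
  intro g _
  obtain ⟨c, hc', n, hn, rfl⟩ := exists_mul_normalizer_inf_sylow S C g
  refine mul_mem ((Subgroup.centralizer_le hWU).trans (Subgroup.centralizer_le_normalizer _) hc')
    (hWN ?_)
  rw [hN, ← hCS]
  exact normalizer_le_normalizer_thompsonSubgroupOf p _ hn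

end

end CfsgLib.ThompsonJ
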